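import Mathlib
import Cfsg.Agent.Lib.Core.Basic

/-!
Groups with a fixed-point-free automorphism of order three: orders are `≡ 1 (mod 3)`, index-four centres do not occur,
groups of order 16 are abelian, and the non-abelian groups of order 64 are special with centre of order 4.
-/

set_option autoImplicit false

namespace Cfsg.Agent.Lib.Ord64

open Subgroup

/-- A fixed point free automorphism of order dividing three. -/
structure Fp {H : Type*} [Group H] (ρ : H ≃* H) : Prop where
  r3 : ∀ y, ρ (ρ (ρ y)) = y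
  fp : ∀ y, ρ y = y → y = 1

section fpf

variable {H : Type*} [Group H] [Finite H] {ρ : H ≃* H}

lemma mem_of_fix (hρ : Fp ρ) (N : Subgroup H) (hN : ∀ n ∈ N, ρ n ∈ N) {y : H} (hy : y⁻¹ * ρ y ∈ N) : y ∈ N := by
  classical
  have key : ∀ a b : H, a⁻¹ * ρ a = b⁻¹ * ρ b → a = b := by
    intro a b h1
    have h2 : ρ (b * a⁻¹) = b * a⁻¹ := by
      rw [map_mul, map_inv]
      have : ρ b = b * (a⁻¹ * ρ a) := by rw [h1]; group
      rw [this]; group
    have h3 := hρ.fp _ h2
    exact (mul_inv_eq_one.mp h3).symm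
  let f : N → N := fun n => ⟨n.1⁻¹ * ρ n.1, N.mul_mem (N.inv_mem n.2) (hN _ n.2)⟩
  have hf : Function.Injective f := by
    intro a b hab
    exact Subtype.ext (key _ _ (congrArg Subtype.val hab))
  obtain ⟨n, hn⟩ := (Finite.injective_iff_surjective.mp hf) ⟨_, hy⟩
  have h1 : n.1⁻¹ * ρ n.1 = y⁻¹ * ρ y := congrArg Subtype.val hn
  rw [← key _ _ h1]
  exact n.2

lemma card_mod3 (hρ : Fp ρ) (N : Subgroup H) (hN : ∀ n ∈ N, ρ n ∈ N) : Nat.card N % 3 = 1 := by
  classical
  haveI := Fintype.ofFinite N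
  haveI : Fact (Nat.Prime 3) := ⟨Nat.prime_three⟩
  let f : Function.End N := fun n => ⟨ρ n.1, hN _ n.2⟩
  have hf : f ^ 3 ^ 1 = 1 := by
    funext n
    apply Subtype.ext
    exact hρ.r3 _
  have h := Equiv.Perm.card_fixedPoints_modEq (p := 3) (n := 1) hf
  have hfix : Fintype.card (Function.fixedPoints f) = 1 := by
    rw [Fintype.card_eq_one_iff]
    refine ⟨⟨1, ?_⟩, ?_⟩
    · apply Subtype.ext
      exact map_one ρ
    · rintro ⟨a, ha⟩
      apply Subtype.ext
      apply Subtype.ext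
      have h1 : ρ a.1 = a.1 := congrArg Subtype.val ha
      exact hρ.fp _ h1
  rw [hfix] at h
  rw [Nat.card_eq_fintype_card]
  exact h

lemma center_inv (z : H) (hz : z ∈ center H) : ρ z ∈ center H := by
  rw [mem_center_iff] at hz ⊢
  intro g
  have := hz (ρ.symm g)
  have h2 := congrArg ρ this
  simpa using h2

/-- If all commutators lie in the invariant subgroup `N` then `y ρ(y) ρ²(y)` lies in `N`. -/
lemma w_mem (hρ : Fp ρ) (N : Subgroup H) [N.Normal] (hN : ∀ n ∈ N, ρ n ∈ N)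
    (hc : ∀ a b : H, a * b * a⁻¹ * b⁻¹ ∈ N) (y : H) : y * ρ y * ρ (ρ y) ∈ N := by
  apply mem_of_fix hρ N hN
  have hcomm : ∀ a b : H ⧸ N, a * b = b * a := by
    intro a b
    induction a using QuotientGroup.induction_on with | H a => ?_
    induction b using QuotientGroup.induction_on with | H b => ?_
    have h := (QuotientGroup.eq_one_iff _).mpr (hc a b)
    rw [QuotientGroup.mk_mul, QuotientGroup.mk_mul, QuotientGroup.mk_mul, QuotientGroup.mk_inv, QuotientGroup.mk_inv] at h
    have h2 : (a : H ⧸ N) * b * (a : H ⧸ N)⁻¹ * (b : H ⧸ N)⁻¹ = 1 := h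
    calc (a : H ⧸ N) * b = ((a : H ⧸ N) * b * (a : H ⧸ N)⁻¹ * (b : H ⧸ N)⁻¹) * (b * a) := by group
      _ = b * a := by rw [h2, one_mul]
  rw [← QuotientGroup.eq_one_iff]
  rw [map_mul, map_mul, hρ.r3, QuotientGroup.mk_mul, QuotientGroup.mk_inv]
  have h1 : ((ρ y * ρ (ρ y) * y : H) : H ⧸ N) = ((y * ρ y * ρ (ρ y) : H) : H ⧸ N) := by
    rw [QuotientGroup.mk_mul, QuotientGroup.mk_mul, QuotientGroup.mk_mul, QuotientGroup.mk_mul, hcomm _ (y : H ⧸ N), mul_assoc]
  rw [h1, inv_mul_cancel]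

theorem comm_of_index_four (hρ : Fp ρ) (hidx : (center H).index = 4) : ∀ a b : H, a * b = b * a := by
  classical
  have hcard : Nat.card H = 4 * Nat.card (center H) := by
    have := Subgroup.card_mul_index (center H)
    rw [hidx] at this
    omega
  have hquot : Nat.card (H ⧸ center H) = 2 ^ 2 := by
    rw [← Subgroup.index_eq_card, hidx]; norm_num
  haveI : Fact (Nat.Prime 2) := ⟨Nat.prime_two⟩
  have hqc := IsPGroup.commutative_of_card_eq_prime_sq hquot
  have hc : ∀ a b : H, a * b * a⁻¹ * b⁻¹ ∈ center H := by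
    intro a b
    rw [← QuotientGroup.eq_one_iff]
    have := hqc (a : H ⧸ center H) b
    rw [QuotientGroup.mk_mul, QuotientGroup.mk_mul, QuotientGroup.mk_mul, QuotientGroup.mk_inv, QuotientGroup.mk_inv]
    rw [this]; group
  by_contra hne
  push Not at hne
  obtain ⟨a, b, hab⟩ := hne
  have haZ : a ∉ center H := by
    intro h
    exact hab ((mem_center_iff.mp h b).symm)
  have hZρ : ∀ n ∈ center H, ρ n ∈ center H := fun n hn => center_inv n hn
  -- commutator of `a` and `ρ a` is fixed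
  have hw := w_mem hρ (center H) hZρ hc a
  have hcm := hc a (ρ a)
  have hfix : ρ (a * ρ a * a⁻¹ * (ρ a)⁻¹) = a * ρ a * a⁻¹ * (ρ a)⁻¹ := by
    set c := a * ρ a * a⁻¹ * (ρ a)⁻¹ with hcdef
    set w := a * ρ a * ρ (ρ a) with hwdef
    have hd : ρ (ρ a) = (ρ a)⁻¹ * a⁻¹ * w := by rw [hwdef]; group
    have h1 : ρ c = ρ a * ρ (ρ a) * (ρ a)⁻¹ * (ρ (ρ a))⁻¹ := by
      rw [hcdef]; simp only [map_mul, map_inv]
    have hwc := mem_center_iff.mp hw
    have h2 : ρ a * ρ (ρ a) * (ρ a)⁻¹ * (ρ (ρ a))⁻¹ = a⁻¹ * (ρ a)⁻¹ * a * ρ a := by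
      rw [hd]
      have h3 : ρ a * ((ρ a)⁻¹ * a⁻¹ * w) * (ρ a)⁻¹ * ((ρ a)⁻¹ * a⁻¹ * w)⁻¹ = a⁻¹ * (w * (ρ a)⁻¹ * w⁻¹) * a * ρ a := by group
      rw [h3]
      have h4 : w * (ρ a)⁻¹ * w⁻¹ = (ρ a)⁻¹ := by
        rw [← hwc (ρ a)⁻¹]; group
      rw [h4]
    rw [h1, h2]
    have hcc := mem_center_iff.mp hcm
    have h5 : a⁻¹ * c * a = c := by
      have := hcc a
      calc a⁻¹ * c * a = a⁻¹ * (c * a) := by group
        _ = a⁻¹ * (a * c) := by rw [this]
        _ = c := by group
    have h6 : (ρ a)⁻¹ * c * ρ a = c := by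
      have := hcc (ρ a)
      calc (ρ a)⁻¹ * c * ρ a = (ρ a)⁻¹ * (c * ρ a) := by group
        _ = (ρ a)⁻¹ * (ρ a * c) := by rw [this]
        _ = c := by group
    calc a⁻¹ * (ρ a)⁻¹ * a * ρ a = (ρ a)⁻¹ * (a⁻¹ * c * a) * ρ a := by rw [hcdef]; group
      _ = c := by rw [h5, h6]
  have hc1 := hρ.fp _ hfix
  have hcomm1 : a * ρ a = ρ a * a := by
    calc a * ρ a = (a * ρ a * a⁻¹ * (ρ a)⁻¹) * (ρ a * a) := by group
      _ = ρ a * a := by rw [hc1, one_mul]
  have hcomm2 : ρ a * ρ (ρ a) = ρ (ρ a) * ρ a := by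
    have := congrArg ρ hcomm1
    simpa using this
  have hcomm3 : ρ (ρ a) * a = a * ρ (ρ a) := by
    have := congrArg ρ hcomm2
    simpa [hρ.r3] using this
  -- the centralizer of the orbit
  let D : Subgroup H := centralizer ({a, ρ a, ρ (ρ a)} : Set H)
  have hD : ∀ y, y ∈ D ↔ (y * a = a * y ∧ y * ρ a = ρ a * y ∧ y * ρ (ρ a) = ρ (ρ a) * y) := by
    intro y
    rw [mem_centralizer_iff]
    constructor
    · intro h
      refine ⟨(h a (by simp)).symm, (h (ρ a) (by simp)).symm, (h (ρ (ρ a)) (by simp)).symm⟩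
    · rintro ⟨h1, h2, h3⟩ g hg
      simp only [Set.mem_insert_iff, Set.mem_singleton_iff] at hg
      rcases hg with rfl | rfl | rfl
      · exact h1.symm
      · exact h2.symm
      · exact h3.symm
  have hDρ : ∀ n ∈ D, ρ n ∈ D := by
    intro n hn
    rw [hD] at hn ⊢
    obtain ⟨h1, h2, h3⟩ := hn
    refine ⟨?_, ?_, ?_⟩
    · have := congrArg ρ h3
      simpa [hρ.r3] using this
    · have := congrArg ρ h1
      simpa using this
    · have := congrArg ρ h2
      simpa using this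
  have hZD : center H ≤ D := by
    intro z hz
    rw [hD]
    have := mem_center_iff.mp hz
    exact ⟨(this a).symm, (this _).symm, (this _).symm⟩
  have haD : a ∈ D := by
    rw [hD]
    exact ⟨rfl, hcomm1, hcomm3.symm⟩
  have h3D := card_mod3 hρ D hDρ
  have h3Z := card_mod3 hρ (center H) hZρ
  obtain ⟨k, hk⟩ := Subgroup.card_dvd_of_le hZD
  have hDdvd := Subgroup.card_subgroup_dvd_card D
  have hZpos : 0 < Nat.card (center H) := Nat.card_pos
  have hk4 : k ∣ 4 := by
    rw [hk, hcard, mul_comm 4] at hDdvd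
    exact Nat.dvd_of_mul_dvd_mul_left hZpos hDdvd
  have hk3 : k % 3 = 1 := by
    rw [hk, Nat.mul_mod, h3Z, one_mul, Nat.mod_mod] at h3D
    exact h3D
  have hkcases : k = 1 ∨ k = 4 := by
    have : k ≤ 4 := Nat.le_of_dvd (by norm_num) hk4
    omega
  rcases hkcases with h1 | h4
  · have : D = center H := by
      apply (Subgroup.eq_of_le_of_card_ge hZD _).symm
      rw [hk, h1, mul_one]
    exact haZ (this ▸ haD)
  · have hDtop : D = ⊤ := by
      apply Subgroup.eq_top_of_card_eq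
      rw [hk, h4, hcard, mul_comm]
    have hb : b ∈ D := by rw [hDtop]; trivial
    have := ((hD b).mp hb).1
    exact hab this.symm

theorem comm_of_card16 (hc : Nat.card H = 16) (hρ : Fp ρ) : ∀ a b : H, a * b = b * a := by
  classical
  haveI : Fact (Nat.Prime 2) := ⟨Nat.prime_two⟩
  have hp : IsPGroup 2 H := IsPGroup.iff_card.mpr ⟨4, by rw [hc]; norm_num⟩
  haveI : Nontrivial H := by
    rw [← Finite.one_lt_card_iff_nontrivial, hc]; norm_num
  haveI := hp.center_nontrivial
  have h3 := card_mod3 hρ (center H) (fun n hn => center_inv n hn)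
  have hd : Nat.card (center H) ∣ 16 := hc ▸ Subgroup.card_subgroup_dvd_card _
  have hone : 1 < Nat.card (center H) := Finite.one_lt_card
  have hcases : Nat.card (center H) = 4 ∨ Nat.card (center H) = 16 := by
    have hle : Nat.card (center H) ≤ 16 := Nat.le_of_dvd (by norm_num) hd
    generalize Nat.card (center H) = m at *
    interval_cases m <;> first | omega | (exfalso; revert hd; decide)
  rcases hcases with h4 | h16
  · apply comm_of_index_four hρ
    have := Subgroup.card_mul_index (center H)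
    rw [h4, hc] at this
    omega
  · have : center H = ⊤ := by
      apply Subgroup.eq_top_of_card_eq
      rw [h16, hc]
    intro a b
    have hb : b ∈ center H := by rw [this]; trivial
    exact (mem_center_iff.mp hb a)

end fpf

end Cfsg.Agent.Lib.Ord64
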