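import Mathlib
import Cfsg.Agent.Lib.Ord64.Fpf

/-! The non-abelian groups of order 64 with a fixed-point-free automorphism of order three are special. -/

set_option autoImplicit false

namespace Cfsg.Agent.Lib.Ord64

open Subgroup

section ord64

variable {T : Type*} [Group T] [Finite T] {ρ : T ≃* T}

lemma orb_relations (hρ : Fp ρ) {u : T} (hu : u ∈ center T) :
    u * ρ u * ρ (ρ u) = 1 := by
  apply hρ.fp
  have h1 : ρ u ∈ center T := center_inv u hu
  have h2 : ρ (ρ u) ∈ center T := center_inv _ h1
  rw [map_mul, map_mul, hρ.r3]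
  exact (mem_center_iff.mp hu (ρ u * ρ (ρ u))).trans (mul_assoc _ _ _).symm

/-- The four group generated by a central involution and its images. -/
def orbSub (hρ : Fp ρ) (u : T) (hu : u ∈ center T) (h2 : u * u = 1) : Subgroup T where
  carrier := {y | y = 1 ∨ y = u ∨ y = ρ u ∨ y = ρ (ρ u)}
  one_mem' := Or.inl rfl
  mul_mem' := by
    have h1 : ρ u ∈ center T := center_inv u hu
    have h3 : ρ (ρ u) ∈ center T := center_inv _ h1
    have hr := orb_relations hρ hu
    have s1 : ρ u * ρ u = 1 := by rw [← map_mul, h2, map_one]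
    have s2 : ρ (ρ u) * ρ (ρ u) = 1 := by rw [← map_mul, s1, map_one]
    have huv : u * ρ u = ρ (ρ u) := by
      have := congrArg (· * ρ (ρ u)) hr
      simpa [mul_assoc, s2] using this
    have hvu : ρ u * u = ρ (ρ u) := (mem_center_iff.mp hu _).trans huv
    have hvw : ρ u * ρ (ρ u) = u := by
      have := congrArg (u * ·) hr
      simpa [← mul_assoc, h2] using this
    have hwv : ρ (ρ u) * ρ u = u := (mem_center_iff.mp h1 _).trans hvw
    have huw : u * ρ (ρ u) = ρ u := by
      rw [← huv, ← mul_assoc, h2, one_mul]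
    have hwu : ρ (ρ u) * u = ρ u := (mem_center_iff.mp hu _).trans huw
    rintro a b (rfl | rfl | rfl | rfl) (rfl | rfl | rfl | rfl) <;>
      simp only [Set.mem_setOf_eq, one_mul, mul_one, h2, s1, s2, huv, hvu, hvw, hwv, huw, hwu, true_or, or_true]
  inv_mem' := by
    have s1 : ρ u * ρ u = 1 := by rw [← map_mul, h2, map_one]
    have s2 : ρ (ρ u) * ρ (ρ u) = 1 := by rw [← map_mul, s1, map_one]
    rintro a (rfl | rfl | rfl | rfl)
    · simp
    · right; left; exact inv_eq_of_mul_eq_one_left h2
    · right; right; left; exact inv_eq_of_mul_eq_one_left s1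
    · right; right; right; exact inv_eq_of_mul_eq_one_left s2

lemma mem_orbSub (hρ : Fp ρ) (u : T) (hu : u ∈ center T) (h2 : u * u = 1) (y : T) :
    y ∈ orbSub hρ u hu h2 ↔ y = 1 ∨ y = u ∨ y = ρ u ∨ y = ρ (ρ u) := Iff.rfl

lemma orbSub_le (hρ : Fp ρ) (u : T) (hu : u ∈ center T) (h2 : u * u = 1) : orbSub hρ u hu h2 ≤ center T := by
  have h1 : ρ u ∈ center T := center_inv u hu
  have h3 : ρ (ρ u) ∈ center T := center_inv _ h1
  rintro a (rfl | rfl | rfl | rfl)
  · exact one_mem _
  · exact hu
  · exact h1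
  · exact h3

lemma orbSub_inv (hρ : Fp ρ) (u : T) (hu : u ∈ center T) (h2 : u * u = 1) :
    ∀ n ∈ orbSub hρ u hu h2, ρ n ∈ orbSub hρ u hu h2 := by
  rintro a (rfl | rfl | rfl | rfl)
  · left; exact map_one ρ
  · right; right; left; rfl
  · right; right; right; rfl
  · right; left; exact hρ.r3 _

lemma orbSub_card (hρ : Fp ρ) (u : T) (hu : u ∈ center T) (h2 : u * u = 1) (h1 : u ≠ 1) :
    Nat.card (orbSub hρ u hu h2) = 4 := by
  classical
  have h3 := card_mod3 hρ _ (orbSub_inv hρ u hu h2)
  have hle : Nat.card (orbSub hρ u hu h2) ≤ 4 := by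
    let s : Finset T := {1, u, ρ u, ρ (ρ u)}
    have hs : ((orbSub hρ u hu h2 : Subgroup T) : Set T) = ↑s := by
      ext y
      simp [s, SetLike.mem_coe, mem_orbSub]
    have h4 : Nat.card (orbSub hρ u hu h2) = s.card := by
      have h5 : Nat.card (orbSub hρ u hu h2) = Nat.card ((orbSub hρ u hu h2 : Subgroup T) : Set T) := rfl
      rw [h5, hs, Nat.card_eq_fintype_card]
      simp
    rw [h4]
    exact Finset.card_le_four
  have hne : Nat.card (orbSub hρ u hu h2) ≠ 1 := by
    intro h
    have hb := (Subgroup.card_eq_one (H := orbSub hρ u hu h2)).mp h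
    have hu' : u ∈ orbSub hρ u hu h2 := Or.inr (Or.inl rfl)
    rw [hb] at hu'
    exact h1 (mem_bot.mp hu')
  omega

/-- The induced automorphism of the quotient. -/
noncomputable def rhoBar (hρ : Fp ρ) (U : Subgroup T) [U.Normal] (hU : ∀ n ∈ U, ρ n ∈ U) : (T ⧸ U) ≃* (T ⧸ U) :=
  QuotientGroup.congr U U ρ (by
    ext y
    constructor
    · rintro ⟨n, hn, rfl⟩
      exact hU _ hn
    · intro hy
      refine ⟨ρ (ρ y), hU _ (hU _ hy), hρ.r3 y⟩)

lemma fp_rhoBar (hρ : Fp ρ) (U : Subgroup T) [U.Normal] (hU : ∀ n ∈ U, ρ n ∈ U) : Fp (rhoBar hρ U hU) := by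
  constructor
  · intro y
    induction y using QuotientGroup.induction_on with | H y => ?_
    simp only [rhoBar, QuotientGroup.congr_mk, hρ.r3]
  · intro y
    induction y using QuotientGroup.induction_on with | H y => ?_
    intro h
    simp only [rhoBar, QuotientGroup.congr_mk] at h
    rw [QuotientGroup.eq_one_iff]
    apply mem_of_fix hρ U hU
    have := (QuotientGroup.eq (s := U)).mp h.symm
    exact this

theorem struct64 (hT : Nat.card T = 64) (hna : ∃ a b : T, a * b ≠ b * a) (hρ : Fp ρ) :
    Nat.card (center T) = 4 ∧ (∀ a b : T, a * b * a⁻¹ * b⁻¹ ∈ center T) ∧ (∀ z ∈ center T, z * z = 1) ∧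
      (∀ y : T, y * y ∈ center T) ∧
      (∀ v ∈ center T, v ≠ 1 → ∀ z ∈ center T, z = 1 ∨ z = v ∨ z = ρ v ∨ z = ρ (ρ v)) := by
  classical
  haveI : Fact (Nat.Prime 2) := ⟨Nat.prime_two⟩
  have hp : IsPGroup 2 T := IsPGroup.iff_card.mpr ⟨6, by rw [hT]; norm_num⟩
  haveI : Nontrivial T := by
    rw [← Finite.one_lt_card_iff_nontrivial, hT]; norm_num
  haveI := hp.center_nontrivial
  have hZρ : ∀ n ∈ center T, ρ n ∈ center T := fun n hn => center_inv n hn
  have h3 := card_mod3 hρ (center T) hZρ
  have hd : Nat.card (center T) ∣ 64 := hT ▸ Subgroup.card_subgroup_dvd_card _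
  have hone : 1 < Nat.card (center T) := Finite.one_lt_card
  -- a central involution
  have hpz : IsPGroup 2 (center T) := hp.to_subgroup _
  obtain ⟨u', hu'⟩ : ∃ u' : center T, orderOf u' = 2 := by
    apply exists_prime_orderOf_dvd_card'
    have hd' : Nat.card (center T) ∣ 2 ^ 6 := by simpa using hd
    obtain ⟨k, -, hk⟩ := (Nat.dvd_prime_pow Nat.prime_two).mp hd'
    rw [hk]
    have : k ≠ 0 := by
      rintro rfl
      simp [hk] at hone
    exact dvd_pow_self 2 this
  let u : T := u'.1
  have hu : u ∈ center T := u'.2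
  have hu2 : u * u = 1 := by
    have := pow_orderOf_eq_one u'
    rw [hu', pow_two] at this
    exact congrArg Subtype.val this
  have hu1 : u ≠ 1 := by
    intro h
    have : u' = 1 := Subtype.ext h
    rw [this, orderOf_one] at hu'
    omega
  let U := orbSub hρ u hu hu2
  have hUZ : U ≤ center T := orbSub_le hρ u hu hu2
  haveI hUn : U.Normal := by
    constructor
    intro n hn g
    have := mem_center_iff.mp (hUZ hn) g
    rw [this]
    simpa using hn
  have hUc : Nat.card U = 4 := orbSub_card hρ u hu hu2 hu1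
  have hUρ := orbSub_inv hρ u hu hu2
  have hq : Nat.card (T ⧸ U) = 16 := by
    have h1 := Subgroup.card_eq_card_quotient_mul_card_subgroup U
    rw [hT, hUc] at h1
    omega
  have hqc := comm_of_card16 hq (fp_rhoBar hρ U hUρ)
  have hcU : ∀ a b : T, a * b * a⁻¹ * b⁻¹ ∈ U := by
    intro a b
    rw [← QuotientGroup.eq_one_iff]
    have := hqc (a : T ⧸ U) b
    rw [QuotientGroup.mk_mul, QuotientGroup.mk_mul, QuotientGroup.mk_mul, QuotientGroup.mk_inv, QuotientGroup.mk_inv]
    rw [this]; group
  have hc : ∀ a b : T, a * b * a⁻¹ * b⁻¹ ∈ center T := fun a b => hUZ (hcU a b)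
  -- the centre has order four
  have hZ4 : Nat.card (center T) = 4 := by
    have hle : Nat.card (center T) ≤ 64 := Nat.le_of_dvd (by norm_num) hd
    have hcases : Nat.card (center T) = 4 ∨ Nat.card (center T) = 16 ∨ Nat.card (center T) = 64 := by
      generalize Nat.card (center T) = m at *
      interval_cases m <;> first | omega | (exfalso; revert hd; decide)
    obtain ⟨a, b, hab⟩ := hna
    rcases hcases with h | h | h
    · exact h
    · exfalso
      apply hab
      apply comm_of_index_four hρ
      have := Subgroup.card_mul_index (center T)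
      rw [h, hT] at this
      omega
    · exfalso
      have : center T = ⊤ := by
        apply Subgroup.eq_top_of_card_eq
        rw [h, hT]
      have hb : b ∈ center T := by rw [this]; trivial
      exact hab (mem_center_iff.mp hb a)
  have hUeq : ∀ (v : T) (hv : v ∈ center T) (hv2 : v * v = 1), v ≠ 1 → orbSub hρ v hv hv2 = center T := by
    intro v hv hv2 hv1
    apply Subgroup.eq_of_le_of_card_ge (orbSub_le hρ v hv hv2)
    rw [orbSub_card hρ v hv hv2 hv1, hZ4]
  have hzz : ∀ z ∈ center T, z * z = 1 := by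
    intro z hz
    have : z ∈ U := by rw [show U = center T from hUeq u hu hu2 hu1]; exact hz
    rcases this with rfl | rfl | rfl | rfl
    · simp
    · exact hu2
    · rw [← map_mul, hu2, map_one]
    · rw [← map_mul, ← map_mul, hu2, map_one, map_one]
  refine ⟨hZ4, hc, hzz, ?_, ?_⟩
  · intro y
    rw [mem_center_iff]
    intro t
    have hcc := hc t y
    have hcz := mem_center_iff.mp hcc
    set c := t * y * t⁻¹ * y⁻¹ with hcdef
    have h1 : t * y = c * (y * t) := by rw [hcdef]; group
    have h2 : c * c = 1 := hzz c hcc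
    calc t * (y * y) = (t * y) * y := by group
      _ = (c * (y * t)) * y := by rw [h1]
      _ = c * (y * (t * y)) := by group
      _ = c * (y * (c * (y * t))) := by rw [h1]
      _ = c * (y * c) * (y * t) := by group
      _ = c * (c * y) * (y * t) := by rw [← hcz y]
      _ = (c * c) * (y * y) * t := by group
      _ = y * y * t := by rw [h2, one_mul]
  · intro v hv hv1 z hz
    have hv2 := hzz v hv
    have : z ∈ orbSub hρ v hv hv2 := by rw [hUeq v hv hv2 hv1]; exact hz
    exact this

end ord64

end Cfsg.Agent.Lib.Ord64
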