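import Mathlib
import Cfsg.Agent.Lib.Ord64.Struct

/-! Commutator calculus in a special group of order 64 with a fixed-point-free automorphism of order three, and the
fixed points of an involutory automorphism inverting it. -/

set_option autoImplicit false

namespace Cfsg.Agent.Lib.Ord64

open Subgroup

/-- commutators -/
def cm {T : Type*} [Group T] (a b : T) : T := a * b * a⁻¹ * b⁻¹

section sp

variable {T : Type*} [Group T] [Finite T]

/-- The structure found in `struct64`. -/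
structure Sp (ρ : T ≃* T) : Prop where
  fp : Fp ρ
  card : Nat.card T = 64
  hna : ∃ a b : T, a * b ≠ b * a
  zc : Nat.card (center T) = 4
  hc : ∀ a b : T, a * b * a⁻¹ * b⁻¹ ∈ center T
  zz : ∀ z ∈ center T, z * z = 1
  sq : ∀ y : T, y * y ∈ center T
  orb : ∀ v ∈ center T, v ≠ 1 → ∀ z ∈ center T, z = 1 ∨ z = v ∨ z = ρ v ∨ z = ρ (ρ v)

variable {ρ : T ≃* T} (S : Sp ρ)
include S

lemma cm_center (a b : T) : cm a b ∈ center T := S.hc a b

lemma cm_mul_left (a a' b : T) : cm (a * a') b = cm a b * cm a' b := by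
  have hz := mem_center_iff.mp (cm_center S a' b)
  calc cm (a * a') b = a * cm a' b * (b * a⁻¹ * b⁻¹) := by simp only [cm]; group
    _ = cm a' b * a * (b * a⁻¹ * b⁻¹) := by rw [hz a]
    _ = cm a' b * cm a b := by simp only [cm]; group
    _ = cm a b * cm a' b := (hz _).symm

lemma cm_mul_right (a b b' : T) : cm a (b * b') = cm a b * cm a b' := by
  have hz := mem_center_iff.mp (cm_center S a b')
  calc cm a (b * b') = (a * b * a⁻¹) * cm a b' * b⁻¹ := by simp only [cm]; group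
    _ = cm a b' * (a * b * a⁻¹) * b⁻¹ := by rw [hz]
    _ = cm a b' * cm a b := by simp only [cm]; group
    _ = cm a b * cm a b' := (hz _).symm

omit S [Finite T] in
lemma cm_self (a : T) : cm a a = 1 := by simp [cm]

lemma cm_swap (a b : T) : cm b a = cm a b := by
  have h : cm b a = (cm a b)⁻¹ := by simp only [cm]; group
  rw [h]
  exact inv_eq_of_mul_eq_one_left (S.zz _ (cm_center S a b))

omit S [Finite T] in
lemma cm_of_center_right (a : T) {z : T} (hz : z ∈ center T) : cm a z = 1 := by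
  have := mem_center_iff.mp hz a
  simp only [cm]
  rw [this]
  group

omit S [Finite T] in
lemma map_cm (f : T ≃* T) (a b : T) : f (cm a b) = cm (f a) (f b) := by
  simp only [cm, map_mul, map_inv]

lemma w_center (y : T) : y * ρ y * ρ (ρ y) ∈ center T :=
  w_mem S.fp (center T) (fun n hn => center_inv n hn) S.hc y

lemma cm_rho (u v : T) : cm u (ρ v) = ρ (ρ (cm u v)) := by
  have h3 := S.fp.r3
  set a := cm u v with ha
  set b := cm u (ρ v) with hb
  set c := cm u (ρ (ρ v)) with hc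
  have azc := cm_center S u v
  have bzc := cm_center S u (ρ v)
  have E1 : a * b * c = 1 := by
    rw [ha, hb, hc, ← cm_mul_right S, ← cm_mul_right S]
    exact cm_of_center_right u (w_center S v)
  have E2 : a * ρ c * ρ (ρ b) = 1 := by
    have h1 : ρ c = cm (ρ u) v := by rw [hc, map_cm, h3]
    have h2 : ρ (ρ b) = cm (ρ (ρ u)) v := by rw [hb, map_cm, map_cm, h3]
    rw [h1, h2, ha, ← cm_mul_left S, ← cm_mul_left S]
    rw [← cm_swap S]
    exact cm_of_center_right v (w_center S u)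
  have hbz := mem_center_iff.mp bzc
  have haa := S.zz a azc
  have hbb := S.zz b bzc
  have Ec : c = a * b := by
    have h : c = (a * b)⁻¹ := eq_inv_of_mul_eq_one_right E1
    rw [h]
    apply inv_eq_of_mul_eq_one_left
    calc a * b * (a * b) = a * (b * a) * b := by group
      _ = a * (a * b) * b := by rw [← hbz a]
      _ = (a * a) * (b * b) := by group
      _ = 1 := by rw [haa, hbb, one_mul]
  have Wa := orb_relations S.fp azc
  have Wb := orb_relations S.fp bzc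
  have E3 : ρ (ρ a) * b = 1 := by
    have h1 : a * ρ a = ρ (ρ a) := by
      have h2 : (ρ (ρ a)) * (ρ (ρ a)) = 1 := S.zz _ (center_inv _ (center_inv _ azc))
      calc a * ρ a = a * ρ a * (ρ (ρ a) * ρ (ρ a)) := by rw [h2, mul_one]
        _ = (a * ρ a * ρ (ρ a)) * ρ (ρ a) := by group
        _ = ρ (ρ a) := by rw [Wa, one_mul]
    have h2 : ρ b * ρ (ρ b) = b := by
      calc ρ b * ρ (ρ b) = (b * b) * (ρ b * ρ (ρ b)) := by rw [hbb, one_mul]
        _ = b * (b * ρ b * ρ (ρ b)) := by group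
        _ = b := by rw [Wb, mul_one]
    rw [Ec, map_mul] at E2
    calc ρ (ρ a) * b = (a * ρ a) * (ρ b * ρ (ρ b)) := by rw [h1, h2]
      _ = 1 := by rw [← E2]; group
  have h := eq_inv_of_mul_eq_one_right E3
  rw [h]
  exact inv_eq_of_mul_eq_one_left (S.zz _ (center_inv _ (center_inv _ azc)))

lemma cm_rho_left (u v : T) : cm (ρ u) v = ρ (ρ (cm u v)) := by
  rw [cm_swap S v (ρ u), cm_rho S, cm_swap S v u]

lemma cm_rho_self (u : T) : cm u (ρ u) = 1 := by
  rw [cm_rho S, cm_self, map_one, map_one]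

lemma w_one (y : T) : y * ρ y * ρ (ρ y) = 1 := by
  apply S.fp.fp
  have h1 : cm y (ρ y) = 1 := cm_rho_self S y
  have h2 : cm (ρ (ρ y)) y = 1 := by
    have : cm (ρ (ρ y)) (ρ (ρ (ρ y))) = 1 := cm_rho_self S _
    rwa [S.fp.r3] at this
  have h3 : ρ (ρ y) * y = y * ρ (ρ y) := by
    have : ρ (ρ y) * y * (ρ (ρ y))⁻¹ * y⁻¹ = 1 := h2
    calc ρ (ρ y) * y = (ρ (ρ y) * y * (ρ (ρ y))⁻¹ * y⁻¹) * (y * ρ (ρ y)) := by group
      _ = y * ρ (ρ y) := by rw [this, one_mul]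
  have h4 : y * ρ y = ρ y * y := by
    have : y * ρ y * y⁻¹ * (ρ y)⁻¹ = 1 := h1
    calc y * ρ y = (y * ρ y * y⁻¹ * (ρ y)⁻¹) * (ρ y * y) := by group
      _ = ρ y * y := by rw [this, one_mul]
  rw [map_mul, map_mul, S.fp.r3]
  calc ρ y * ρ (ρ y) * y = ρ y * (ρ (ρ y) * y) := by group
    _ = ρ y * (y * ρ (ρ y)) := by rw [h3]
    _ = (ρ y * y) * ρ (ρ y) := by group
    _ = y * ρ y * ρ (ρ y) := by rw [h4]

lemma sq_mul (y y' : T) : (y * y') * (y * y') = y * y * (y' * y') * cm y' y := by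
  have hz := mem_center_iff.mp (cm_center S y' y)
  have h1 : y' * y = cm y' y * (y * y') := by simp only [cm]; group
  calc (y * y') * (y * y') = y * (y' * y) * y' := by group
    _ = y * (cm y' y * (y * y')) * y' := by rw [h1]
    _ = (y * cm y' y) * (y * y') * y' := by group
    _ = (cm y' y * y) * (y * y') * y' := by rw [hz y]
    _ = cm y' y * (y * y * (y' * y')) := by group
    _ = y * y * (y' * y') * cm y' y := (hz _).symm

end sp

section act

variable {T : Type*} [Group T] [Finite T] {ρ : T ≃* T} (S : Sp ρ)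
  {x : T ≃* T} (hx2 : ∀ y, x (x y) = y) (hxρ : ∀ y, x (ρ y) = ρ (ρ (x y)))
  {C : Subgroup T} (hC : ∀ y, y ∈ C ↔ x y = y)

include S hx2 hxρ

lemma exists_center_fix : ∃ z₀ ∈ center T, z₀ ≠ 1 ∧ x z₀ = z₀ := by
  have h3 := S.fp.r3
  obtain ⟨v, hv1⟩ : ∃ v : center T, v ≠ 1 := by
    haveI : Nontrivial (center T) := by
      rw [← Finite.one_lt_card_iff_nontrivial, S.zc]; norm_num
    exact exists_ne 1
  have hv : v.1 ∈ center T := v.2
  have hvne : v.1 ≠ 1 := fun h => hv1 (Subtype.ext h)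
  have hxv : x v.1 ∈ center T := center_inv _ hv
  rcases S.orb v.1 hv hvne _ hxv with h | h | h | h
  · exfalso
    apply hvne
    have := congrArg x h
    rwa [hx2, map_one] at this
  · exact ⟨v.1, hv, hvne, h⟩
  · refine ⟨ρ (ρ v.1), center_inv _ (center_inv _ hv), ?_, ?_⟩
    · intro h1
      apply hvne
      have := congrArg ρ h1
      rwa [h3, map_one] at this
    · rw [hxρ, hxρ, h, h3]
  · refine ⟨ρ v.1, center_inv _ hv, ?_, ?_⟩
    · intro h1
      apply hvne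
      have := congrArg ρ (congrArg ρ h1)
      rwa [h3, map_one, map_one] at this
    · rw [hxρ, h, h3]

variable {z₀ : T} (hz : z₀ ∈ center T) (hz1 : z₀ ≠ 1) (hzx : x z₀ = z₀)

include hz hz1 hzx

lemma fix_center {z : T} (hzc : z ∈ center T) (h : x z = z) : z = 1 ∨ z = z₀ := by
  have h3 := S.fp.r3
  have hne : ρ z₀ ≠ 1 := by
    intro h1
    apply hz1
    have := congrArg ρ (congrArg ρ h1)
    rwa [h3, map_one, map_one] at this
  rcases S.orb z₀ hz hz1 z hzc with h1 | h1 | h1 | h1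
  · exact Or.inl h1
  · exact Or.inr h1
  · exfalso
    rw [h1, hxρ, hzx] at h
    exact hne (S.fp.fp _ h)
  · exfalso
    rw [h1, hxρ, hxρ, hzx, h3] at h
    exact hne (S.fp.fp _ h.symm)

lemma z_two : z₀ * ρ (ρ z₀) = ρ z₀ := by
  have h := orb_relations S.fp hz
  have h1 : ρ z₀ ∈ center T := center_inv _ hz
  have h2 := S.zz _ h1
  have h4 := mem_center_iff.mp h1 (ρ (ρ z₀))
  calc z₀ * ρ (ρ z₀) = z₀ * (ρ (ρ z₀) * ρ z₀) * ρ z₀ := by
        rw [mul_assoc z₀, mul_assoc (ρ (ρ z₀)), h2, mul_one]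
    _ = z₀ * (ρ z₀ * ρ (ρ z₀)) * ρ z₀ := by rw [h4]
    _ = (z₀ * ρ z₀ * ρ (ρ z₀)) * ρ z₀ := by group
    _ = ρ z₀ := by rw [h, one_mul]

lemma fix_adj {v : T} (hv : v⁻¹ * x v ∈ center T) : ∃ z ∈ center T, x (v * z) = v * z := by
  set k := v⁻¹ * x v with hk
  have hxv : x v = v * k := by rw [hk]; group
  have hxk : x k = k := by
    have h1 : x k = k⁻¹ := by
      rw [hk, map_mul, map_inv, hx2]; group
    rw [h1]
    exact inv_eq_of_mul_eq_one_left (S.zz _ hv)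
  rcases fix_center S hx2 hxρ hz hz1 hzx hv hxk with h | h
  · refine ⟨1, one_mem _, ?_⟩
    rw [mul_one, hxv, h, mul_one]
  · refine ⟨ρ z₀, center_inv _ hz, ?_⟩
    rw [map_mul, hxv, hxρ, hzx, h, mul_assoc, z_two S hx2 hxρ hz hz1 hzx]

include hC

lemma z_decomp {z : T} (hzc : z ∈ center T) :
    ∃ a ∈ C, ∃ b ∈ C, a ∈ center T ∧ b ∈ center T ∧ z = a * ρ (ρ b) := by
  have hzC : z₀ ∈ C := (hC _).2 hzx
  rcases S.orb z₀ hz hz1 z hzc with h | h | h | h
  · exact ⟨1, one_mem _, 1, one_mem _, one_mem _, one_mem _, by simp [h]⟩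
  · exact ⟨z₀, hzC, 1, one_mem _, hz, one_mem _, by simp [h]⟩
  · exact ⟨z₀, hzC, z₀, hzC, hz, hz, by rw [h, z_two S hx2 hxρ hz hz1 hzx]⟩
  · exact ⟨1, one_mem _, z₀, hzC, one_mem _, hz, by simp [h]⟩

lemma decomp (y : T) : ∃ c₁ ∈ C, ∃ c₂ ∈ C, y = c₁ * ρ (ρ c₂) := by
  have h3 := S.fp.r3
  have hn : ∀ y : T, (y * x y)⁻¹ * x (y * x y) ∈ center T := by
    intro y
    have h1 : (y * x y)⁻¹ * x (y * x y) = cm (x y)⁻¹ y⁻¹ := by
      rw [map_mul, hx2]; simp only [cm]; group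
    rw [h1]
    exact cm_center S _ _
  set v₁ := ρ y * x (ρ y) with hv₁
  set v₂ := y * x y with hv₂
  obtain ⟨z₁, hz₁, h₁⟩ := fix_adj S hx2 hxρ hz hz1 hzx (hn (ρ y))
  obtain ⟨z₂, hz₂, h₂⟩ := fix_adj S hx2 hxρ hz hz1 hzx (hn y)
  have hkc : (v₁ * ρ (ρ v₂))⁻¹ * y ∈ center T := by
    have hQ : ∀ p q : T ⧸ center T, p * q = q * p := by
      intro a b
      induction a using QuotientGroup.induction_on with | H a => ?_
      induction b using QuotientGroup.induction_on with | H b => ?_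
      have h := (QuotientGroup.eq_one_iff _).mpr (S.hc a b)
      rw [QuotientGroup.mk_mul, QuotientGroup.mk_mul, QuotientGroup.mk_mul, QuotientGroup.mk_inv, QuotientGroup.mk_inv] at h
      have h2 : (a : T ⧸ center T) * b * (a : T ⧸ center T)⁻¹ * (b : T ⧸ center T)⁻¹ = 1 := h
      calc (a : T ⧸ center T) * b = ((a : T ⧸ center T) * b * (a : T ⧸ center T)⁻¹ * (b : T ⧸ center T)⁻¹) * (b * a) := by group
        _ = b * a := by rw [h2, one_mul]
    have hS : ∀ p : T ⧸ center T, p * p = 1 := by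
      intro a
      induction a using QuotientGroup.induction_on with | H a => ?_
      rw [← QuotientGroup.mk_mul, QuotientGroup.eq_one_iff]
      exact S.sq a
    have hW : (QuotientGroup.mk y : T ⧸ center T) * QuotientGroup.mk (ρ y) * QuotientGroup.mk (ρ (ρ y)) = 1 := by
      rw [← QuotientGroup.mk_mul, ← QuotientGroup.mk_mul, QuotientGroup.eq_one_iff]
      exact w_center S y
    rw [← QuotientGroup.eq_one_iff, QuotientGroup.mk_mul, QuotientGroup.mk_inv, inv_mul_eq_one]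
    have e1 : v₁ * ρ (ρ v₂) = ρ y * ρ (ρ (x y)) * (ρ (ρ y) * ρ (ρ (x y))) := by
      rw [hv₁, hv₂, hxρ, map_mul, map_mul]
    rw [e1]
    simp only [QuotientGroup.mk_mul]
    set A : T ⧸ center T := QuotientGroup.mk (ρ y) with hA
    set B : T ⧸ center T := QuotientGroup.mk (ρ (ρ (x y))) with hB
    set D : T ⧸ center T := QuotientGroup.mk (ρ (ρ y)) with hD
    set Y : T ⧸ center T := QuotientGroup.mk y with hY
    have h1 : A * D = Y := by
      have h2 : Y * (A * D) = Y * Y := by rw [← mul_assoc, hW, hS]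
      exact mul_left_cancel h2
    calc A * B * (D * B) = A * (B * D) * B := by group
      _ = A * (D * B) * B := by rw [hQ B D]
      _ = (A * D) * (B * B) := by group
      _ = Y := by rw [hS, mul_one, h1]
  obtain ⟨a, ha, b, hb, hac, hbc, hab⟩ := z_decomp S hx2 hxρ hC hz hz1 hzx
    (z := z₁⁻¹ * (ρ (ρ z₂))⁻¹ * ((v₁ * ρ (ρ v₂))⁻¹ * y))
    (mul_mem (mul_mem (inv_mem hz₁) (inv_mem (center_inv _ (center_inv _ hz₂)))) hkc)
  refine ⟨v₁ * z₁ * a, mul_mem ((hC _).2 h₁) ha, v₂ * z₂ * b, mul_mem ((hC _).2 h₂) hb, ?_⟩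
  set k := (v₁ * ρ (ρ v₂))⁻¹ * y with hk
  have hy : y = v₁ * ρ (ρ v₂) * k := by rw [hk]; group
  set w := ρ (ρ z₂) with hw
  have hwc : w ∈ center T := center_inv _ (center_inv _ hz₂)
  have hzk := mem_center_iff.mp hz₁
  have hwk := mem_center_iff.mp hwc
  have hac' := mem_center_iff.mp hac
  rw [map_mul, map_mul, map_mul, map_mul, ← hw]
  have hab' : a * ρ (ρ b) = z₁⁻¹ * w⁻¹ * k := hab.symm
  calc y = v₁ * ρ (ρ v₂) * k := hy
    _ = v₁ * z₁ * (ρ (ρ v₂) * w) * (z₁⁻¹ * w⁻¹ * k) := by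
        have e1 : v₁ * z₁ * (ρ (ρ v₂) * w) * (z₁⁻¹ * w⁻¹ * k) = v₁ * (z₁ * ρ (ρ v₂)) * (w * z₁⁻¹) * w⁻¹ * k := by group
        rw [e1, ← hzk, ← hwk z₁⁻¹]
        group
    _ = v₁ * z₁ * (ρ (ρ v₂) * w) * (a * ρ (ρ b)) := by rw [hab']
    _ = v₁ * z₁ * a * (ρ (ρ v₂) * w * ρ (ρ b)) := by
        have e1 : v₁ * z₁ * (ρ (ρ v₂) * w) * (a * ρ (ρ b)) = v₁ * z₁ * ((ρ (ρ v₂) * w) * a) * ρ (ρ b) := by group
        rw [e1, hac']
        group

lemma inter_trivial {c d : T} (hc : c ∈ C) (hd : d ∈ C) (h : c = ρ (ρ d)) : d = 1 := by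
  have h3 := S.fp.r3
  have h1 : x c = c := (hC _).1 hc
  have h2 : x d = d := (hC _).1 hd
  rw [h, hxρ, hxρ, h2, h3] at h1
  have h4 := S.fp.fp _ h1.symm
  have h5 := congrArg ρ (congrArg ρ h4)
  rwa [h3, map_one, map_one] at h5

theorem card_C : Nat.card C = 8 := by
  let f : C × C → T := fun p => p.1.1 * ρ (ρ p.2.1)
  have hf : Function.Bijective f := by
    constructor
    · rintro ⟨a, b⟩ ⟨c, d⟩ h
      have h1 : a.1 * ρ (ρ b.1) = c.1 * ρ (ρ d.1) := h
      have h2 : c.1⁻¹ * a.1 = ρ (ρ (d.1 * b.1⁻¹)) := by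
        rw [map_mul, map_mul, map_inv, map_inv]
        calc c.1⁻¹ * a.1 = c.1⁻¹ * (a.1 * ρ (ρ b.1)) * (ρ (ρ b.1))⁻¹ := by group
          _ = c.1⁻¹ * (c.1 * ρ (ρ d.1)) * (ρ (ρ b.1))⁻¹ := by rw [h1]
          _ = _ := by group
      have h3 := inter_trivial S hx2 hxρ hC hz hz1 hzx (mul_mem (inv_mem c.2) a.2) (mul_mem d.2 (inv_mem b.2)) h2
      have hbd : d = b := Subtype.ext (mul_inv_eq_one.mp h3)
      subst hbd
      have hac : a = c := by
        apply Subtype.ext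
        exact mul_right_cancel h1
      rw [hac]
    · intro y
      obtain ⟨c₁, h₁, c₂, h₂, h⟩ := decomp S hx2 hxρ hC hz hz1 hzx y
      exact ⟨(⟨c₁, h₁⟩, ⟨c₂, h₂⟩), h.symm⟩
  have h := Nat.card_congr (Equiv.ofBijective f hf)
  rw [Nat.card_prod, S.card] at h
  generalize Nat.card C = m at h
  have : m ≤ 8 := by nlinarith
  interval_cases m <;> omega

theorem exists_noncomm : ∃ a ∈ C, ∃ b ∈ C, cm a b ≠ 1 := by
  by_contra hcon
  push Not at hcon
  obtain ⟨p, q, hpq⟩ := S.hna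
  apply hpq
  obtain ⟨c₁, h₁, c₂, h₂, rfl⟩ := decomp S hx2 hxρ hC hz hz1 hzx p
  obtain ⟨d₁, h₃, d₂, h₄, rfl⟩ := decomp S hx2 hxρ hC hz hz1 hzx q
  have hall : cm (c₁ * ρ (ρ c₂)) (d₁ * ρ (ρ d₂)) = 1 := by
    rw [cm_mul_left S, cm_mul_right S, cm_mul_right S]
    rw [hcon _ h₁ _ h₃]
    rw [cm_rho S, cm_rho S, hcon _ h₁ _ h₄]
    rw [cm_rho_left S, cm_rho_left S, hcon _ h₂ _ h₃]
    rw [cm_rho S, cm_rho S, cm_rho_left S, cm_rho_left S, hcon _ h₂ _ h₄]
    simp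
  have h : (c₁ * ρ (ρ c₂)) * (d₁ * ρ (ρ d₂)) * (c₁ * ρ (ρ c₂))⁻¹ * (d₁ * ρ (ρ d₂))⁻¹ = 1 := hall
  calc (c₁ * ρ (ρ c₂)) * (d₁ * ρ (ρ d₂)) = ((c₁ * ρ (ρ c₂)) * (d₁ * ρ (ρ d₂)) * (c₁ * ρ (ρ c₂))⁻¹ * (d₁ * ρ (ρ d₂))⁻¹) * ((d₁ * ρ (ρ d₂)) * (c₁ * ρ (ρ c₂))) := by group
    _ = _ := by rw [h, one_mul]

theorem exists_ef : ∃ e f : T, e * e = 1 ∧ f * f = 1 ∧ cm e f ≠ 1 := by
  have h3 := S.fp.r3
  obtain ⟨a, ha, b, hb, hab⟩ := exists_noncomm S hx2 hxρ hC hz hz1 hzx
  set c := cm a b with hc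
  have hcc : c ∈ center T := cm_center S a b
  have hcC : c ∈ C := by
    rw [hC, hc, map_cm, (hC a).1 ha, (hC b).1 hb]
  have hcz : c = z₀ := by
    rcases fix_center S hx2 hxρ hz hz1 hzx hcc ((hC c).1 hcC) with h | h
    · exact absurd h hab
    · exact h
  have hsq : ∀ y ∈ C, y * y = 1 ∨ y * y = c := by
    intro y hy
    rw [hcz]
    exact fix_center S hx2 hxρ hz hz1 hzx (S.sq y) ((hC _).1 (mul_mem hy hy))
  have hcc' := S.zz c hcc
  have hba : cm b a = c := (cm_swap S a b)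
  rcases hsq a ha with h1 | h1 <;> rcases hsq b hb with h2 | h2
  · exact ⟨a, b, h1, h2, hab⟩
  · refine ⟨a, a * b, h1, ?_, ?_⟩
    · rw [sq_mul S, h1, h2, hba, one_mul, hcc']
    · rw [cm_mul_right S, cm_self, one_mul]; exact hab
  · refine ⟨b, a * b, h2, ?_, ?_⟩
    · rw [sq_mul S, h1, h2, hba, mul_one, hcc']
    · rw [cm_mul_right S, cm_self, mul_one, hba]; exact hab
  · -- the quaternion case
    have W := orb_relations S.fp hcc
    have hρc : ρ c ∈ center T := center_inv _ hcc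
    have hρρc : ρ (ρ c) ∈ center T := center_inv _ hρc
    have e1 : cm b (ρ a) = ρ (ρ c) := by rw [cm_rho S, hba]
    have e2 : cm b (ρ (ρ a)) = ρ c := by
      rw [cm_rho S, e1, h3]
    refine ⟨ρ a * b, ρ (ρ a) * b, ?_, ?_, ?_⟩
    · rw [sq_mul S, ← map_mul, h1, h2, e1]
      rw [mem_center_iff.mp hcc (ρ c)]
      exact W
    · rw [sq_mul S, ← map_mul, ← map_mul, h1, h2, e2]
      rw [mem_center_iff.mp hcc (ρ (ρ c)), mul_assoc, mem_center_iff.mp hρc (ρ (ρ c)), ← mul_assoc]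
      exact W
    · rw [cm_mul_left S, cm_mul_right S, cm_mul_right S, cm_self, mul_one]
      rw [cm_rho_self S, one_mul, cm_swap S b (ρ a), e1, e2, mem_center_iff.mp hρc (ρ (ρ c))]
      have e3 : ρ c * ρ (ρ c) = c := by
        calc ρ c * ρ (ρ c) = (c * c) * (ρ c * ρ (ρ c)) := by rw [hcc', one_mul]
          _ = c * (c * ρ c * ρ (ρ c)) := by group
          _ = c := by rw [W, mul_one]
      rw [e3]
      exact hab

end act

end Cfsg.Agent.Lib.Ord64
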