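import Mathlib
import Cfsg.Agent.Lib.Classical.F4
import Cfsg.Agent.Lib.Classical.Basic

/-! The Heisenberg group over a commutative ring, and its embedding as a Sylow 2-subgroup of `PSL₃(4)`. -/

set_option autoImplicit false

namespace Cfsg.Agent.Lib.Ord64

open Cfsg.Agent.Lib.Classical.FF4

/-- The Heisenberg group over a commutative ring. -/
@[ext] structure Heis (R : Type*) where
  a : R
  b : R
  c : R

instance heisGroup {R : Type*} [CommRing R] : Group (Heis R) where
  mul p q := ⟨p.a + q.a, p.b + q.b, p.c + q.c + p.a * q.b⟩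
  one := ⟨0, 0, 0⟩
  inv p := ⟨-p.a, -p.b, -p.c + p.a * p.b⟩
  mul_assoc p q r := by
    apply Heis.ext
    · exact add_assoc _ _ _
    · exact add_assoc _ _ _
    · show p.c + q.c + p.a * q.b + r.c + (p.a + q.a) * r.b = p.c + (q.c + r.c + q.a * r.b) + p.a * (q.b + r.b)
      ring
  one_mul p := by
    apply Heis.ext
    · exact zero_add _
    · exact zero_add _
    · show 0 + p.c + 0 * p.b = p.c
      ring
  mul_one p := by
    apply Heis.ext
    · exact add_zero _
    · exact add_zero _
    · show p.c + 0 + p.a * 0 = p.c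
      ring
  inv_mul_cancel p := by
    apply Heis.ext
    · exact neg_add_cancel _
    · exact neg_add_cancel _
    · show -p.c + p.a * p.b + p.c + -p.a * p.b = 0
      ring

lemma heis_mul_def {R : Type*} [CommRing R] (p q : Heis R) :
    p * q = ⟨p.a + q.a, p.b + q.b, p.c + q.c + p.a * q.b⟩ := rfl

lemma heis_one_def {R : Type*} [CommRing R] : (1 : Heis R) = ⟨0, 0, 0⟩ := rfl

/-- The coordinate equivalence. -/
def heisEquiv (R : Type*) : Heis R ≃ R × R × R where
  toFun p := (p.a, p.b, p.c)
  invFun p := ⟨p.1, p.2.1, p.2.2⟩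
  left_inv _ := rfl
  right_inv _ := rfl

lemma card_heisF4 : Nat.card (Heis F4) = 64 := by
  rw [Nat.card_congr (heisEquiv F4), Nat.card_prod, Nat.card_prod, Nat.card_eq_fintype_card, card_F4]

instance : Finite (Heis F4) := Nat.finite_of_card_ne_zero (by rw [card_heisF4]; norm_num)

/-- The matrix. -/
def heisMat {R : Type*} [CommRing R] (p : Heis R) : Matrix (Fin 3) (Fin 3) R :=
  !![1, p.a, p.c; 0, 1, p.b; 0, 0, 1]

lemma heisMat_mul {R : Type*} [CommRing R] (p q : Heis R) : heisMat (p * q) = heisMat p * heisMat q := by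
  apply Matrix.ext
  intro i j
  fin_cases i <;> fin_cases j <;>
    simp [heis_mul_def, heisMat, Matrix.mul_apply, Fin.sum_univ_three] <;> ring

lemma heisMat_one {R : Type*} [CommRing R] : heisMat (1 : Heis R) = 1 := by
  apply Matrix.ext
  intro i j
  fin_cases i <;> fin_cases j <;> simp [heis_one_def, heisMat]

lemma heisMat_det {R : Type*} [CommRing R] (p : Heis R) : (heisMat p).det = 1 := by
  simp [heisMat, Matrix.det_fin_three]

/-- The matrix map. -/
def heisSL : Heis F4 →* Matrix.SpecialLinearGroup (Fin 3) F4 where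
  toFun p := ⟨heisMat p, heisMat_det p⟩
  map_one' := Subtype.ext heisMat_one
  map_mul' p q := Subtype.ext (heisMat_mul p q)

/-- The map to `PSL₃(4)`. -/
noncomputable def heisPSL : Heis F4 →* Matrix.ProjectiveSpecialLinearGroup (Fin 3) F4 :=
  (QuotientGroup.mk' _).comp heisSL

lemma heisPSL_inj : Function.Injective heisPSL := by
  rw [injective_iff_map_eq_one]
  intro p hp
  have h1 : heisSL p ∈ Subgroup.center (Matrix.SpecialLinearGroup (Fin 3) F4) :=
    (QuotientGroup.eq_one_iff _).mp hp
  obtain ⟨r, -, hr⟩ := Matrix.SpecialLinearGroup.mem_center_iff.mp h1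
  have hmat : Matrix.scalar (Fin 3) r = heisMat p := hr
  have e01 := congrFun (congrFun hmat 0) 1
  have e02 := congrFun (congrFun hmat 0) 2
  have e12 := congrFun (congrFun hmat 1) 2
  simp [heisMat] at e01 e02 e12
  apply Heis.ext
  · first | exact e01 | exact e01.symm
  · first | exact e12 | exact e12.symm
  · first | exact e02 | exact e02.symm

theorem exists_sylow_heis : ∃ S : Sylow 2 (Matrix.ProjectiveSpecialLinearGroup (Fin 3) F4),
    Nonempty (Heis F4 ≃* ↥(S : Subgroup (Matrix.ProjectiveSpecialLinearGroup (Fin 3) F4))) := by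
  classical
  haveI : Fact (Nat.Prime 2) := ⟨Nat.prime_two⟩
  have hc := Cfsg.Agent.Lib.Classical.card_PSL (F := F4) card_F4 3 (by norm_num)
  have hval : (∏ i : Fin 3, ((4 : ℕ) ^ 3 - 4 ^ (i : ℕ))) = 181440 := by decide
  rw [hval] at hc
  have hcard : Nat.card (Matrix.ProjectiveSpecialLinearGroup (Fin 3) F4) = 20160 := by
    have hg : Nat.gcd 3 (4 - 1) = 3 := by decide
    rw [hg] at hc
    have h3 : (4 : ℕ) - 1 = 3 := rfl
    rw [h3] at hc
    omega
  haveI : Finite (Matrix.ProjectiveSpecialLinearGroup (Fin 3) F4) :=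
    Nat.finite_of_card_ne_zero (by rw [hcard]; norm_num)
  have hr : Nat.card heisPSL.range = 64 := by
    rw [Nat.card_congr (MonoidHom.ofInjective heisPSL_inj).toEquiv.symm, card_heisF4]
  have hP : IsPGroup 2 heisPSL.range := IsPGroup.of_card (n := 6) (by rw [hr]; norm_num)
  have hi : ¬ 2 ∣ heisPSL.range.index := by
    have h := Subgroup.card_mul_index heisPSL.range
    rw [hr, hcard] at h
    have : heisPSL.range.index = 315 := by omega
    rw [this]
    norm_num
  refine ⟨hP.toSylow hi, ⟨?_⟩⟩
  exact (MonoidHom.ofInjective heisPSL_inj).trans (MulEquiv.subgroupCongr (hP.toSylow_coe hi).symm)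

end Cfsg.Agent.Lib.Ord64
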