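import Mathlib
import Cfsg.Agent.Lib.Ord64.Act
import Cfsg.Agent.Lib.Ord64.Heis
import Cfsg.Agent.Lib.Cl.CycNormal

/-! The isomorphism from the Heisenberg group over `F₄` onto a special group of order 64 containing non-commuting
involutions. -/

set_option autoImplicit false

namespace Cfsg.Agent.Lib.Ord64

open Subgroup Cfsg.Agent.Lib.Classical.FF4

/-- the generator of `F₄` over `F₂` -/
def om : F4 := ⟨0, 1⟩
/-- its square -/
def om2 : F4 := ⟨1, 1⟩

lemma f4_cases (a : F4) : a = 0 ∨ a = 1 ∨ a = om ∨ a = om2 := by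
  revert a
  decide

/-- Lookup by the four values of the field. -/
def tbl {T : Type*} [One T] (p q r : T) (a : F4) : T :=
  if a = 0 then 1 else if a = 1 then p else if a = om then q else r

section tbl
variable {T : Type*} [Group T] (p q r : T)

lemma tbl0 : tbl p q r 0 = 1 := if_pos rfl
lemma tbl1 : tbl p q r 1 = p := by
  unfold tbl
  rw [if_neg (by decide), if_pos rfl]
lemma tblw : tbl p q r om = q := by
  unfold tbl
  rw [if_neg (by decide), if_neg (by decide), if_pos rfl]
lemma tblv : tbl p q r om2 = r := by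
  unfold tbl
  rw [if_neg (by decide), if_neg (by decide), if_neg (by decide)]

/-- A Klein four group, listed. -/
structure Kl (p q r : T) : Prop where
  pp : p * p = 1
  qq : q * q = 1
  rr : r * r = 1
  pq : p * q = r
  qp : q * p = r
  pr : p * r = q
  rp : r * p = q
  qr : q * r = p
  rq : r * q = p

variable {p q r}

lemma Kl.of (h : p * q * r = 1) (pp : p * p = 1) (qq : q * q = 1) (rr : r * r = 1) : Kl p q r := by
  have pq : p * q = r := by
    calc p * q = p * q * (r * r) := by rw [rr, mul_one]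
      _ = (p * q * r) * r := by group
      _ = r := by rw [h, one_mul]
  have qr : q * r = p := by
    calc q * r = (p * p) * (q * r) := by rw [pp, one_mul]
      _ = p * (p * q * r) := by group
      _ = p := by rw [h, mul_one]
  have pr : p * r = q := by
    rw [← pq, ← mul_assoc, pp, one_mul]
  have rq : r * q = p := by
    rw [← pq, mul_assoc, qq, mul_one]
  have qp : q * p = r := by
    have h1 : p * q * (p * q) = 1 := by rw [pq, rr]
    calc q * p = (p * p) * (q * p) * (q * q) := by rw [pp, qq, one_mul, mul_one]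
      _ = p * (p * q * (p * q)) * q := by group
      _ = r := by rw [h1, mul_one, pq]
  have rp : r * p = q := by
    rw [← qp, mul_assoc, pp, mul_one]
  exact ⟨pp, qq, rr, pq, qp, pr, rp, qr, rq⟩

lemma tbl_add (h : Kl p q r) (a b : F4) : tbl p q r (a + b) = tbl p q r a * tbl p q r b := by
  have a1 : (1 : F4) + 1 = 0 := by decide
  have a2 : (1 : F4) + om = om2 := by decide
  have a3 : (1 : F4) + om2 = om := by decide
  have a4 : om + (1 : F4) = om2 := by decide
  have a5 : om + om = 0 := by decide
  have a6 : om + om2 = 1 := by decide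
  have a7 : om2 + (1 : F4) = om := by decide
  have a8 : om2 + om = 1 := by decide
  have a9 : om2 + om2 = 0 := by decide
  rcases f4_cases a with rfl | rfl | rfl | rfl <;> rcases f4_cases b with rfl | rfl | rfl | rfl <;>
    simp only [add_zero, zero_add, a1, a2, a3, a4, a5, a6, a7, a8, a9, tbl0, tbl1, tblw, tblv, one_mul, mul_one,
      h.pp, h.qq, h.rr, h.pq, h.qp, h.pr, h.rp, h.qr, h.rq]

end tbl

section psi

variable {T : Type*} [Group T] [Finite T] {ρ : T ≃* T} (S : Sp ρ) {e f : T} (he : e * e = 1) (hf : f * f = 1)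
  (hne : cm e f ≠ 1)

include S he

lemma kl_A : Kl e (ρ e) (ρ (ρ e)) := by
  refine Kl.of (w_one S e) he ?_ ?_
  · rw [← map_mul, he, map_one]
  · rw [← map_mul, ← map_mul, he, map_one, map_one]

omit he in
lemma kl_Z {z : T} (hz : z ∈ center T) : Kl z (ρ (ρ z)) (ρ z) := by
  have h1 : ρ z ∈ center T := center_inv _ hz
  have h2 : ρ (ρ z) ∈ center T := center_inv _ h1
  refine Kl.of ?_ (S.zz _ hz) (S.zz _ h2) (S.zz _ h1)
  have := orb_relations S.fp hz
  calc z * ρ (ρ z) * ρ z = z * (ρ (ρ z) * ρ z) := mul_assoc _ _ _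
    _ = z * (ρ z * ρ (ρ z)) := by rw [mem_center_iff.mp h1 (ρ (ρ z))]
    _ = z * ρ z * ρ (ρ z) := (mul_assoc _ _ _).symm
    _ = 1 := this

omit he in
lemma tbl_center {z : T} (hz : z ∈ center T) (a : F4) : tbl z (ρ (ρ z)) (ρ z) a ∈ center T := by
  have h1 : ρ z ∈ center T := center_inv _ hz
  have h2 : ρ (ρ z) ∈ center T := center_inv _ h1
  rcases f4_cases a with rfl | rfl | rfl | rfl
  · rw [tbl0]; exact one_mem _
  · rw [tbl1]; exact hz
  · rw [tblw]; exact h2
  · rw [tblv]; exact h1

omit he in
lemma cm_table (a b : F4) :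
    cm (tbl e (ρ e) (ρ (ρ e)) a) (tbl f (ρ f) (ρ (ρ f)) b) = tbl (cm e f) (ρ (ρ (cm e f))) (ρ (cm e f)) (a * b) := by
  have h3 := S.fp.r3
  have m1 : (1 : F4) * om = om := by decide
  have m2 : (1 : F4) * om2 = om2 := by decide
  have m3 : om * (1 : F4) = om := by decide
  have m4 : om * om = om2 := by decide
  have m5 : om * om2 = 1 := by decide
  have m6 : om2 * (1 : F4) = om2 := by decide
  have m7 : om2 * om = 1 := by decide
  have m8 : om2 * om2 = om := by decide
  have m9 : (1 : F4) * 1 = 1 := by decide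
  have z1 : ∀ y : T, cm (1 : T) y = 1 := by intro y; simp [cm]
  have z2 : ∀ y : T, cm y (1 : T) = 1 := by intro y; simp [cm]
  have r1 : ∀ u v : T, cm u (ρ v) = ρ (ρ (cm u v)) := cm_rho S
  have r2 : ∀ u v : T, cm (ρ u) v = ρ (ρ (cm u v)) := cm_rho_left S
  rcases f4_cases a with rfl | rfl | rfl | rfl <;> rcases f4_cases b with rfl | rfl | rfl | rfl <;>
    simp only [mul_zero, zero_mul, m1, m2, m3, m4, m5, m6, m7, m8, m9, tbl0, tbl1, tblw, tblv, z1, z2, r1, r2, h3]

include hf hne

/-- The isomorphism. -/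
theorem heis_iso : Nonempty (Heis F4 ≃* T) := by
  classical
  have h3 := S.fp.r3
  set z := cm e f with hz
  have hzc : z ∈ center T := cm_center S e f
  have kA := kl_A S he
  have kB := kl_A S hf
  have kZ := kl_Z S hzc
  set A := tbl e (ρ e) (ρ (ρ e)) with hA
  set B := tbl f (ρ f) (ρ (ρ f)) with hB
  set Z := tbl z (ρ (ρ z)) (ρ z) with hZ
  have Zc : ∀ a, Z a ∈ center T := tbl_center S hzc
  have Acm : ∀ a b, cm (A a) (B b) = Z (a * b) := cm_table S
  have Aadd : ∀ a b, A (a + b) = A a * A b := tbl_add kA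
  have Badd : ∀ a b, B (a + b) = B a * B b := tbl_add kB
  have Zadd : ∀ a b, Z (a + b) = Z a * Z b := tbl_add kZ
  let Ψ : Heis F4 →* T :=
    { toFun := fun p => B p.b * A p.a * Z p.c
      map_one' := by
        show B 0 * A 0 * Z 0 = 1
        rw [hB, hA, hZ, tbl0, tbl0, tbl0, one_mul, one_mul]
      map_mul' := by
        intro p q
        show B (p.b + q.b) * A (p.a + q.a) * Z (p.c + q.c + p.a * q.b) = B p.b * A p.a * Z p.c * (B q.b * A q.a * Z q.c)
        rw [Aadd, Badd, Zadd, Zadd]
        have c1 := mem_center_iff.mp (Zc p.c)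
        have c2 := mem_center_iff.mp (Zc q.c)
        have c3 := mem_center_iff.mp (Zc (p.a * q.b))
        have hXY : A p.a * B q.b = Z (p.a * q.b) * (B q.b * A p.a) := by
          rw [← Acm]; simp only [cm]; group
        generalize Z p.c = z1 at *
        generalize Z q.c = z2 at *
        generalize Z (p.a * q.b) = z3 at *
        generalize A p.a = X at *
        generalize B q.b = Y at *
        generalize A q.a = W at *
        generalize B p.b = V at *
        symm
        calc V * X * z1 * (Y * W * z2) = V * X * (z1 * (Y * W)) * z2 := by group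
          _ = V * X * ((Y * W) * z1) * z2 := by rw [c1 (Y * W)]
          _ = V * (X * Y) * W * z1 * z2 := by group
          _ = V * (z3 * (Y * X)) * W * z1 * z2 := by rw [hXY]
          _ = V * ((Y * X) * z3) * W * z1 * z2 := by rw [c3 (Y * X)]
          _ = V * Y * X * (z3 * W) * z1 * z2 := by group
          _ = V * Y * X * (W * z3) * z1 * z2 := by rw [c3 W]
          _ = V * Y * (X * W) * (z3 * (z1 * z2)) := by group
          _ = V * Y * (X * W) * ((z1 * z2) * z3) := by rw [c3 (z1 * z2)] }
  have hΨ : ∀ p : Heis F4, Ψ p = B p.b * A p.a * Z p.c := fun _ => rfl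
  have Zinj : ∀ t, Z t = 1 → t = 0 := by
    intro t ht
    have hz1 : z ≠ 1 := hne
    rcases f4_cases t with rfl | rfl | rfl | rfl
    · rfl
    · rw [hZ, tbl1] at ht; exact absurd ht hz1
    · rw [hZ, tblw] at ht
      exfalso
      apply hz1
      have := congrArg ρ ht
      rwa [h3, map_one] at this
    · rw [hZ, tblv] at ht
      exfalso
      apply hz1
      have := congrArg ρ (congrArg ρ ht)
      rwa [h3, map_one, map_one] at this
  have hinj : Function.Injective Ψ := by
    rw [injective_iff_map_eq_one]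
    intro p hp
    -- commuting with the elements of the Heisenberg group
    have comm : ∀ q : Heis F4, Ψ (p * q) = Ψ (q * p) := by
      intro q
      rw [map_mul, map_mul, hp, one_mul, mul_one]
    have ha : p.a = 0 := by
      apply Zinj
      have h1 := comm ⟨0, 1, 0⟩
      rw [hΨ, hΨ] at h1
      have e1 : (p * ⟨0, 1, 0⟩ : Heis F4) = ⟨p.a, p.b + 1, p.c + p.a⟩ := by
        apply Heis.ext
        · exact add_zero _
        · rfl
        · show p.c + 0 + p.a * 1 = p.c + p.a
          ring
      have e2 : ((⟨0, 1, 0⟩ : Heis F4) * p) = ⟨p.a, 1 + p.b, p.c⟩ := by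
        apply Heis.ext
        · exact zero_add _
        · rfl
        · show 0 + p.c + 0 * p.b = p.c
          ring
      rw [e1, e2] at h1
      simp only [add_comm (1 : F4) p.b] at h1
      have h2 := mul_left_cancel h1
      rw [Zadd] at h2
      have h3 : Z p.c * Z p.a = Z p.c * 1 := by rw [h2, mul_one]
      exact mul_left_cancel h3
    have hb : p.b = 0 := by
      apply Zinj
      have h1 := comm ⟨1, 0, 0⟩
      rw [hΨ, hΨ] at h1
      have e1 : (p * ⟨1, 0, 0⟩ : Heis F4) = ⟨p.a + 1, p.b, p.c⟩ := by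
        apply Heis.ext
        · rfl
        · exact add_zero _
        · show p.c + 0 + p.a * 0 = p.c
          ring
      have e2 : ((⟨1, 0, 0⟩ : Heis F4) * p) = ⟨1 + p.a, p.b, p.c + p.b⟩ := by
        apply Heis.ext
        · rfl
        · exact zero_add _
        · show 0 + p.c + 1 * p.b = p.c + p.b
          ring
      rw [e1, e2] at h1
      simp only [add_comm (1 : F4) p.a] at h1
      have h2 := mul_left_cancel h1
      rw [Zadd] at h2
      have h3 : Z p.c * Z p.b = Z p.c * 1 := by rw [← h2, mul_one]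
      exact mul_left_cancel h3
    have hc : p.c = 0 := by
      apply Zinj
      have h1 := hp
      rw [hΨ, ha, hb, hB, hA, tbl0, tbl0, one_mul, one_mul] at h1
      exact h1
    apply Heis.ext
    · exact ha
    · exact hb
    · exact hc
  have hbij : Function.Bijective Ψ := by
    rw [Nat.bijective_iff_injective_and_card]
    exact ⟨hinj, by rw [card_heisF4, S.card]⟩
  exact ⟨MulEquiv.ofBijective Ψ hbij⟩

end psi

section order8

/-- Recognition of the two non-abelian groups of order eight. -/
theorem d8_or_q8 {G : Type*} [Group G] (hc : Nat.card G = 8) (r s : G) (h1 : r * r ≠ 1) (h2 : (r * r) * (r * r) = 1)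
    (hi : s * r * s⁻¹ = r⁻¹) (hs : s * s = 1 ∨ s * s = r * r) :
    Nonempty (G ≃* DihedralGroup 4) ∨ Nonempty (G ≃* QuaternionGroup 2) := by
  haveI : Fact (Nat.Prime 2) := ⟨Nat.prime_two⟩
  haveI hfin : Finite G := Nat.finite_of_card_ne_zero (by rw [hc]; norm_num)
  have ho : orderOf r = 2 ^ 2 := by
    apply orderOf_eq_prime_pow (n := 1)
    · rw [pow_one, pow_two]; exact h1
    · rw [show 2 ^ (1 + 1) = 2 + 2 by norm_num, pow_add, pow_two]; exact h2
  have hns : s ∉ Subgroup.zpowers r := by
    rintro ⟨k, rfl⟩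
    apply h1
    have h3 : r ^ k * r * (r ^ k)⁻¹ = r := by
      rw [(Commute.zpow_left (Commute.refl r) k).eq]; group
    rw [h3] at hi
    nth_rw 1 [hi]
    exact inv_mul_cancel r
  have hidx : (Subgroup.zpowers r).index = 2 := by
    have h4 := Subgroup.card_mul_index (Subgroup.zpowers r)
    rw [Nat.card_zpowers, ho, hc] at h4
    omega
  rcases hs with hs | hs
  · left
    obtain ⟨n, ⟨e⟩⟩ := Cfsg.Agent.Lib.Cl.dihedral_of_inverts (a := r) (n := 2) ho (by norm_num) hidx hns
      (by rw [pow_two]; exact hs) hi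
    have hn : n = 4 := by
      have h3 := Nat.card_congr e.toEquiv
      rw [hc, DihedralGroup.nat_card] at h3
      omega
    subst hn
    exact ⟨e⟩
  · right
    obtain ⟨m, ⟨e⟩⟩ := Cfsg.Agent.Lib.Cl.quaternion_of_inverts (a := r) (n := 2) ho (by norm_num) (by rw [hc]; rfl) hns
      (by rw [pow_two]; simpa [pow_two] using hs) hi
    have hm : m ≠ 0 := by
      rintro rfl
      have h1 := Nat.card_congr e.toEquiv
      rw [hc] at h1
      have h2 : Nat.card (QuaternionGroup 0) = 0 := by
        haveI : Infinite (ZMod (2 * 0)) := (inferInstance : Infinite ℤ)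
        haveI : Infinite (QuaternionGroup 0) :=
          Infinite.of_injective (QuaternionGroup.a (n := 0)) (fun _ _ he => QuaternionGroup.a.inj he)
        exact Nat.card_eq_zero_of_infinite
      omega
    haveI : NeZero m := ⟨hm⟩
    have hm2 : m = 2 := by
      have h1 := Nat.card_congr e.toEquiv
      rw [hc, Nat.card_eq_fintype_card, QuaternionGroup.card] at h1
      omega
    subst hm2
    exact ⟨e⟩

theorem d8_or_q8_sub {T : Type*} [Group T] (C : Subgroup T) (hc : Nat.card C = 8) (r s : T) (hr : r ∈ C) (hs : s ∈ C)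
    (h1 : r * r ≠ 1) (h2 : (r * r) * (r * r) = 1) (hi : s * r * s⁻¹ = r⁻¹) (hs' : s * s = 1 ∨ s * s = r * r) :
    Nonempty (C ≃* DihedralGroup 4) ∨ Nonempty (C ≃* QuaternionGroup 2) :=
  d8_or_q8 hc ⟨r, hr⟩ ⟨s, hs⟩ (fun h => h1 (congrArg Subtype.val h)) (Subtype.ext h2) (Subtype.ext hi)
    (hs'.imp Subtype.ext Subtype.ext)

end order8

section final

variable {T : Type*} [Group T] [Finite T] {ρ : T ≃* T} (S : Sp ρ)
  {x : T ≃* T} (hx2 : ∀ y, x (x y) = y) (hxρ : ∀ y, x (ρ y) = ρ (ρ (x y)))
  {C : Subgroup T} (hC : ∀ y, y ∈ C ↔ x y = y)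
  {z₀ : T} (hz : z₀ ∈ center T) (hz1 : z₀ ≠ 1) (hzx : x z₀ = z₀)

include S hx2 hxρ hC hz hz1 hzx

theorem C_iso : Nonempty (C ≃* DihedralGroup 4) ∨ Nonempty (C ≃* QuaternionGroup 2) := by
  have hcard := card_C S hx2 hxρ hC hz hz1 hzx
  obtain ⟨a, ha, b, hb, hab⟩ := exists_noncomm S hx2 hxρ hC hz hz1 hzx
  set c := cm a b with hc
  have hcc : c ∈ center T := cm_center S a b
  have hcC : c ∈ C := by
    rw [hC, hc, map_cm, (hC a).1 ha, (hC b).1 hb]
  have hcz : c = z₀ := by
    rcases fix_center S hx2 hxρ hz hz1 hzx hcc ((hC c).1 hcC) with h | h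
    · exact absurd h hab
    · exact h
  have hsq : ∀ y ∈ C, y * y = 1 ∨ y * y = c := by
    intro y hy
    rw [hcz]
    exact fix_center S hx2 hxρ hz hz1 hzx (S.sq y) ((hC _).1 (mul_mem hy hy))
  have hcc' := S.zz c hcc
  have hba : cm b a = c := (cm_swap S a b)
  rcases hsq a ha with h1 | h1
  · rcases hsq b hb with h2 | h2
    · apply d8_or_q8_sub C hcard (a * b) a (mul_mem ha hb) ha
      · rw [sq_mul S a b, h1, h2, hba, one_mul, one_mul]; exact hab
      · rw [sq_mul S a b, h1, h2, hba, one_mul, one_mul]; exact hcc'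
      · have hb' : b⁻¹ = b := inv_eq_of_mul_eq_one_left h2
        rw [mul_inv_rev, hb', ← mul_assoc a a b, h1, one_mul]
      · exact Or.inl h1
    · apply d8_or_q8_sub C hcard b a hb ha
      · rw [h2]; exact hab
      · rw [h2]; exact hcc'
      · have h4 : a * b * a⁻¹ = c * b := by rw [hc]; simp only [cm]; group
        rw [h4]
        apply eq_inv_of_mul_eq_one_left
        rw [mul_assoc, h2, hcc']
      · exact Or.inl h1
  · apply d8_or_q8_sub C hcard a b ha hb
    · rw [h1]; exact hab
    · rw [h1]; exact hcc'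
    · have h4 : b * a * b⁻¹ = c * a := by rw [← hba]; simp only [cm]; group
      rw [h4]
      apply eq_inv_of_mul_eq_one_left
      rw [mul_assoc, h1, hcc']
    · rw [h1]; exact hsq b hb

end final

end Cfsg.Agent.Lib.Ord64
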